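import Groth.Agent.CycB.SetupLft
import Groth.Agent.CycB.RelDim
import Mathlib.RingTheory.EssentialFiniteness
import Mathlib.RingTheory.RingHom.EssFiniteType

/-!
# The dimension formula at the stalk level

Only the local ring at the image point is assumed to be universally catenary.
-/

set_option autoImplicit false
universe u

open AlgebraicGeometry CategoryTheory IsLocalRing

namespace Groth.Agent.Ega4fib.H117.DimStalk

open Groth.Agent.CycB Groth.Agent.CycB.RelDim Groth.Agent.CycB.SetupLft

/-- If `S` is the localization of `B` at `Q` and `𝔓` is a prime of `S` with contraction `P`, then the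
height of `Q/P` is the dimension of `S/𝔓`. -/
theorem height_map_mk_eq_ringKrullDim {B S : Type*} [CommRing B] [CommRing S] [Algebra B S]
    (Q : Ideal B) [hQ : Q.IsPrime] [hS : IsLocalization.AtPrime S Q] (𝔓 : Ideal S)
    [h𝔓 : 𝔓.IsPrime] (P : Ideal B) (hP : P = 𝔓.comap (algebraMap B S)) :
    ((Q.map (Ideal.Quotient.mk P)).height : WithBot ℕ∞) = ringKrullDim (S ⧸ 𝔓) := by
  have hPQ : P ≤ Q := by
    intro a ha
    by_contra haQ
    have h1 : IsUnit (algebraMap B S a) := IsLocalization.map_units S (⟨a, haQ⟩ : Q.primeCompl)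
    rw [hP] at ha
    exact h𝔓.ne_top (Ideal.eq_top_of_isUnit_mem _ ha h1)
  let φ : (B ⧸ P) →+* (S ⧸ 𝔓) := Ideal.quotientMap 𝔓 (algebraMap B S) hP.le
  let : Algebra (B ⧸ P) (S ⧸ 𝔓) := φ.toAlgebra
  have hQ' : (Q.map (Ideal.Quotient.mk P)).IsPrime :=
    Ideal.map_isPrime_of_surjective Ideal.Quotient.mk_surjective (by rwa [Ideal.mk_ker])
  have hloc : IsLocalization.AtPrime (S ⧸ 𝔓) (Q.map (Ideal.Quotient.mk P)) := by
    have h2 := IsLocalization.of_surjective (S := S) Q.primeCompl
      (Ideal.Quotient.mk P) Ideal.Quotient.mk_surjective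
      (Ideal.Quotient.mk 𝔓) Ideal.Quotient.mk_surjective rfl ?_
    · change IsLocalization (Q.map (Ideal.Quotient.mk P)).primeCompl _
      have h3 : (Q.map (Ideal.Quotient.mk P)).primeCompl =
          Submonoid.map (Ideal.Quotient.mk P) Q.primeCompl := ?_
      · rw [h3]; exact h2
      ext a
      obtain ⟨a, rfl⟩ := Ideal.Quotient.mk_surjective a
      constructor
      · intro ha
        refine ⟨a, fun ha' => ha (Ideal.mem_map_of_mem _ ha'), rfl⟩
      · rintro ⟨b, hb, hba⟩ ha'
        apply hb
        rw [← hba] at ha'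
        have ha' : b ∈ (Q.map (Ideal.Quotient.mk P)).comap (Ideal.Quotient.mk P) := ha'
        rw [Ideal.comap_map_of_surjective _ Ideal.Quotient.mk_surjective] at ha'
        have h4 : Ideal.comap (Ideal.Quotient.mk P) ⊥ ≤ Q := by
          rw [← RingHom.ker_eq_comap_bot, Ideal.mk_ker]
          exact hPQ
        exact sup_le (le_refl Q) h4 ha'
    · rw [Ideal.mk_ker, Ideal.mk_ker]
      intro s hs
      obtain ⟨⟨a, b⟩, hab⟩ := IsLocalization.surj Q.primeCompl s
      have hbu : IsUnit (algebraMap B S b.1) := IsLocalization.map_units _ b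
      have ha : a ∈ P := by
        rw [hP, Ideal.mem_comap, ← hab]
        exact Ideal.mul_mem_right _ _ hs
      have h6 : s = algebraMap B S a * ↑hbu.unit⁻¹ := by
        rw [Units.eq_mul_inv_iff_mul_eq]
        exact hab
      rw [h6]
      exact Ideal.mul_mem_right _ _ (Ideal.mem_map_of_mem _ ha)
  exact (IsLocalization.AtPrime.ringKrullDim_eq_height _ _).symm

/-- Elements of a field generated by fractions from a localization are fractions from the ring. -/
theorem frac_of_isLocalization {B S L : Type*} [CommRing B] [CommRing S] [Algebra B S] [Field L]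
    (M : Submonoid B) [IsLocalization M S] (ψ : S →+* L)
    (h : ∀ k : L, ∃ a b : S, ψ b ≠ 0 ∧ k = ψ a / ψ b) (k : L) :
    ∃ a b : B, (ψ.comp (algebraMap B S)) b ≠ 0 ∧
      k = (ψ.comp (algebraMap B S)) a / (ψ.comp (algebraMap B S)) b := by
  obtain ⟨a, b, hb, rfl⟩ := h k
  obtain ⟨⟨a', m⟩, ha'⟩ := IsLocalization.surj M a
  obtain ⟨⟨b', n⟩, hb'⟩ := IsLocalization.surj M b
  have hm : ψ (algebraMap B S m) ≠ 0 := ((IsLocalization.map_units S m).map ψ).ne_zero
  have hn : ψ (algebraMap B S n) ≠ 0 := ((IsLocalization.map_units S n).map ψ).ne_zero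
  have e1 : ψ a * ψ (algebraMap B S m) = ψ (algebraMap B S a') := by
    rw [← map_mul]; exact congrArg ψ ha'
  have e2 : ψ b * ψ (algebraMap B S n) = ψ (algebraMap B S b') := by
    rw [← map_mul]; exact congrArg ψ hb'
  refine ⟨a' * n, b' * m, ?_, ?_⟩
  · rw [RingHom.comp_apply, map_mul, map_mul, ← e2]
    exact mul_ne_zero (mul_ne_zero hb hn) hm
  · rw [RingHom.comp_apply, RingHom.comp_apply, map_mul, map_mul, map_mul, map_mul, ← e1, ← e2]
    field_simp

theorem isLocalization_atPrime_maximalIdeal (R : Type*) [CommRing R] [IsLocalRing R] :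
    IsLocalization.AtPrime R (maximalIdeal R) := by
  refine IsLocalization.of_le_isUnit ?_
  intro a ha
  by_contra h
  exact ha ((mem_maximalIdeal a).2 h)

variable {X Y : Scheme.{u}}

theorem specMap_naturality (f : X ⟶ Y) {x y : X} (h : x ⤳ y) :
    (f.residueFieldMap x).hom.comp (Cyc.specMap (f y) (f x) (h.map f.continuous)) =
      (Cyc.specMap y x h).comp (f.stalkMap y).hom := by
  unfold Cyc.specMap
  rw [← CommRingCat.hom_comp, ← CommRingCat.hom_comp]
  congr 1
  rw [Category.assoc, Scheme.residue_residueFieldMap,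
    Scheme.Hom.stalkSpecializes_stalkMap_assoc]

theorem specMap_frac {x y : X} (h : x ⤳ y) (k : X.residueField x) :
    ∃ a b : X.presheaf.stalk y, Cyc.specMap y x h b ≠ 0 ∧
      k = Cyc.specMap y x h a / Cyc.specMap y x h b := by
  obtain ⟨a, b, hb, hk⟩ := IsFractionRing.div_surjective (A := Cyc.LocQuot y x h) k
  obtain ⟨a, rfl⟩ := Ideal.Quotient.mk_surjective a
  obtain ⟨b, rfl⟩ := Ideal.Quotient.mk_surjective b
  refine ⟨a, b, ?_, ?_⟩
  · intro h0
    apply nonZeroDivisors.ne_zero hb
    rw [Ideal.Quotient.eq_zero_iff_mem]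
    exact h0
  · exact hk.symm

/-- Dimension formula for a specialization `x ⤳ y` in a scheme locally of finite type over `Y`, when
the local ring of `Y` at `f y` is universally catenary. -/
theorem dimension_formula (f : X ⟶ Y) [LocallyOfFiniteType f] {x y : X}
    (hcat : CAlg.IsUniversallyCatenary (Y.presheaf.stalk (f y))) (h : x ⤳ y) :
    ∃ m n : ℕ∞, (m : WithBot ℕ∞) = ringKrullDim (Cyc.LocQuot y x h) ∧
      (n : WithBot ℕ∞) = ringKrullDim (Cyc.LocQuot (f y) (f x) (h.map f.continuous)) ∧
      (m : Cardinal.{u}) + rtd f y = (n : Cardinal.{u}) + rtd f x := by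
  let R := Y.presheaf.stalk (f y)
  let S := X.presheaf.stalk y
  let : Algebra R S := (f.stalkMap y).hom.toAlgebra
  have h1 : (f.stalkMap y).hom.EssFiniteType := LocallyOfFiniteType.stalkMap f y
  have hess : Algebra.EssFiniteType R S := h1
  let B := Algebra.EssFiniteType.subalgebra R S
  let Q : Ideal B := (maximalIdeal S).comap (algebraMap B S)
  have hQ : Q.IsPrime := inferInstance
  have hQM : Q.primeCompl = Algebra.EssFiniteType.submonoid R S := by
    ext a
    change ¬ (algebraMap B S a ∈ maximalIdeal S) ↔ IsUnit (algebraMap B S a)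
    rw [mem_maximalIdeal, mem_nonunits_iff, not_not]
  have hloc : IsLocalization.AtPrime S Q := by
    change IsLocalization Q.primeCompl S
    rw [hQM]
    infer_instance
  have hlocR := isLocalization_atPrime_maximalIdeal R
  refine ⟨_, _, height_map_mk_eq_ringKrullDim Q (RingHom.ker (Cyc.specMap y x h)) _ rfl,
    height_map_mk_eq_ringKrullDim (maximalIdeal R)
      (RingHom.ker (Cyc.specMap (f y) (f x) (h.map f.continuous)))
      (RingHom.ker (Cyc.specMap (f y) (f x) (h.map f.continuous))) rfl, ?_⟩
  have key := dimension_formula' (A := R) (B := B) hcat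
    (RingHom.ker (Cyc.specMap (f y) (f x) (h.map f.continuous))) (maximalIdeal R)
    (Ideal.comap (algebraMap B S) (RingHom.ker (Cyc.specMap y x h))) Q
    (Cyc.specMap (f y) (f x) (h.map f.continuous)) (Y.residue (f y)).hom
    ((Cyc.specMap y x h).comp (algebraMap B S)) ((X.residue y).hom.comp (algebraMap B S))
    (f.residueFieldMap x).hom (f.residueFieldMap y).hom rfl ?_ rfl ?_ ?_ ?_ ?_ ?_ ?_ ?_ ?_
  · exact key
  · exact IsLocalRing.ker_residue.symm
  · change Ideal.comap _ _ = RingHom.ker _
    rw [← RingHom.comap_ker]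
    congr 1
    exact IsLocalRing.ker_residue.symm
  · exact specMap_naturality f h
  · exact congrArg CommRingCat.Hom.hom (Scheme.residue_residueFieldMap f y)
  · refine Ideal.comap_mono ?_
    exact le_maximalIdeal (RingHom.ker_ne_top _)
  · exact specMap_frac _
  · intro k
    obtain ⟨a, rfl⟩ := Y.residue_surjective (f y) k
    exact ⟨a, 1, by simp, by simp⟩
  · exact frac_of_isLocalization (Algebra.EssFiniteType.submonoid R S) _ (specMap_frac h)
  · refine frac_of_isLocalization (Algebra.EssFiniteType.submonoid R S) (X.residue y).hom ?_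
    intro k
    obtain ⟨a, rfl⟩ := X.residue_surjective y k
    exact ⟨a, 1, by simp, by simp⟩

end Groth.Agent.Ega4fib.H117.DimStalk
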