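import Groth.Agent.Ega4fib.H117.DimStalk
import Groth.Agent.Old.H32.EquidimPoint
import Groth.Prelude.Def_EGA4b

/-!
# Dimension formula for the minimal primes of the local rings of the source of an equidimensional
morphism
-/

set_option autoImplicit false
universe u

open AlgebraicGeometry CategoryTheory IsLocalRing

namespace Groth.Agent.Ega4fib.H117.EquidimDim

open Groth.Agent.CycB Groth.Agent.CycB.RelDim Groth.Agent.CycB.LocQuot DimStalk

variable {X Y : Scheme.{u}}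

/-- The contraction of the prime of `ζ ⤳ x` is the prime of `f ζ ⤳ f x`. -/
theorem ker_specMap_comap (f : X ⟶ Y) {x y : X} (h : x ⤳ y) :
    (RingHom.ker (Cyc.specMap y x h)).comap (f.stalkMap y).hom =
      RingHom.ker (Cyc.specMap (f y) (f x) (h.map f.continuous)) := by
  rw [RingHom.comap_ker, ← specMap_naturality]
  ext a
  rw [RingHom.mem_ker, RingHom.mem_ker, RingHom.comp_apply, map_eq_zero]

/-- Dimension formula, with natural numbers. -/
theorem ringKrullDim_add_rtd (f : X ⟶ Y) [LocallyOfFiniteType f] {x y : X}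
    (hcat : CAlg.IsUniversallyCatenary (Y.presheaf.stalk (f y))) (h : x ⤳ y) (a b : ℕ)
    (ha : rtd f y = a) (hb : rtd f x = b) :
    ringKrullDim (X.presheaf.stalk y ⧸ RingHom.ker (Cyc.specMap y x h)) + (a : WithBot ℕ∞) =
      ringKrullDim (Y.presheaf.stalk (f y) ⧸
        (RingHom.ker (Cyc.specMap y x h)).comap (f.stalkMap y).hom) + (b : WithBot ℕ∞) := by
  rw [ker_specMap_comap]
  obtain ⟨m, n, hm, hn, e⟩ := dimension_formula f hcat h
  rw [ha, hb] at e
  have e' : m + (a : ℕ∞) = n + (b : ℕ∞) := by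
    rw [← Cardinal.ofENat_nat a, ← Cardinal.ofENat_nat b, ← Cardinal.ofENat_add,
      ← Cardinal.ofENat_add] at e
    exact Cardinal.ofENat_inj.1 e
  change ringKrullDim (Cyc.LocQuot y x h) + (a : WithBot ℕ∞) =
    ringKrullDim (Cyc.LocQuot (f y) (f x) (h.map f.continuous)) + (b : WithBot ℕ∞)
  rw [← hm, ← hn]
  exact congrArg (fun k : ℕ∞ => (k : WithBot ℕ∞)) e'

/-- The point of a minimal prime of `O_{X,x}` is a maximal point of `X`. -/
theorem exists_point_of_mem_minimalPrimes (x : X) (𝔭 : Ideal (X.presheaf.stalk x))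
    (h𝔭 : 𝔭 ∈ minimalPrimes (X.presheaf.stalk x)) :
    ∃ (ζ : X) (hζ : ζ ⤳ x), 𝔭 = RingHom.ker (Cyc.specMap x ζ hζ) ∧
      ∀ ζ' : X, ζ' ⤳ ζ → ζ' = ζ := by
  have hp : 𝔭.IsPrime := h𝔭.1.1
  obtain ⟨ζ, hζ, e⟩ := exists_eq_ker 𝔭
  refine ⟨ζ, hζ, e, fun ζ' hζ' => ?_⟩
  have h1 : RingHom.ker (Cyc.specMap x ζ' (hζ'.trans hζ)) ≤ RingHom.ker (Cyc.specMap x ζ hζ) :=
    (ker_le_iff _ _).2 hζ'
  rw [← e] at h1
  have h2 : 𝔭 ≤ RingHom.ker (Cyc.specMap x ζ' (hζ'.trans hζ)) :=
    h𝔭.2 ⟨ker_isPrime _, bot_le⟩ h1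
  rw [e, ker_le_iff] at h2
  exact (hζ'.antisymm h2).eq

/-- The prime of a maximal point is a minimal prime. -/
theorem ker_specMap_mem_minimalPrimes {x ζ : X} (hζ : ζ ⤳ x) (hmax : ∀ ζ' : X, ζ' ⤳ ζ → ζ' = ζ) :
    RingHom.ker (Cyc.specMap x ζ hζ) ∈ minimalPrimes (X.presheaf.stalk x) := by
  refine ⟨⟨ker_isPrime _, bot_le⟩, ?_⟩
  rintro 𝔮 ⟨hq, -⟩ hle
  obtain ⟨η, hη, e⟩ := exists_eq_ker 𝔮
  rw [e, ker_le_iff] at hle
  rw [e, ker_le_iff, hmax η hle]

/-- If `f` is equidimensional at `x` and `O_{Y,f x}` is universally catenary, then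
there are `e` and `t = trdeg κ(x)/κ(f x)` such that for every minimal prime `𝔭` of `O_{X,x}`, its
contraction is minimal and `dim O_{X,x}/𝔭 + t = dim O_{Y,f x}/(𝔭 ∩ O_{Y,f x}) + e`. -/
theorem exists_ringKrullDim_formula (f : X ⟶ Y) [LocallyOfFiniteType f] (x : X)
    (h : EGA43.IsEquidimAt f x) (hcat : CAlg.IsUniversallyCatenary (Y.presheaf.stalk (f x))) :
    ∃ e t : ℕ, rtd f x = t ∧ (∀ ζ : X, ζ ⤳ x → (∀ ζ' : X, ζ' ⤳ ζ → ζ' = ζ) → rtd f ζ = e) ∧
      ∀ 𝔭 ∈ minimalPrimes (X.presheaf.stalk x),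
        𝔭.comap (f.stalkMap x).hom ∈ minimalPrimes (Y.presheaf.stalk (f x)) ∧
        ringKrullDim (X.presheaf.stalk x ⧸ 𝔭) + (t : WithBot ℕ∞) =
          ringKrullDim (Y.presheaf.stalk (f x) ⧸ 𝔭.comap (f.stalkMap x).hom) +
            (e : WithBot ℕ∞) := by
  obtain ⟨e, U, hxU, h1, -⟩ := Groth.Agent.Old.H32.EquidimPoint.exists_of_isEquidimAt f x h
  obtain ⟨t, ht⟩ := Cardinal.lt_aleph0.1 (rtd_lt_aleph0 f x)
  refine ⟨e, t, ht, fun ζ hζ hmax => (h1 ζ (hζ.mem_open U.2 hxU) hmax).2.2, fun 𝔭 h𝔭 => ?_⟩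
  obtain ⟨ζ, hζ, rfl, hmax⟩ := exists_point_of_mem_minimalPrimes x 𝔭 h𝔭
  obtain ⟨h2, -, h3⟩ := h1 ζ (hζ.mem_open U.2 hxU) hmax
  refine ⟨?_, ringKrullDim_add_rtd f hcat hζ t e ht h3⟩
  rw [ker_specMap_comap]
  exact ker_specMap_mem_minimalPrimes _ h2

/-- The Krull dimension of a nontrivial ring is attained modulo a minimal prime when all these
dimensions agree. -/
theorem isEquidim_of_forall {R : Type u} [CommRing R]
    (h : ∀ p ∈ minimalPrimes R, ∀ q ∈ minimalPrimes R, ringKrullDim (R ⧸ p) = ringKrullDim (R ⧸ q)) :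
    EGA4.IsEquidim R := by
  intro p hp
  apply le_antisymm
  · exact ringKrullDim_quotient_le p
  · rw [ringKrullDim]
    refine iSup_le fun s => ?_
    obtain ⟨q, hq, hqs⟩ := Ideal.exists_minimalPrimes_le (I := (⊥ : Ideal R)) (J := s.head.asIdeal)
      bot_le
    rw [h p hp q hq, ringKrullDim_quotient]
    let s' : LTSeries ↥(PrimeSpectrum.zeroLocus (q : Set R)) :=
      { length := s.length
        toFun := fun i => ⟨s i, fun a ha => (s.head_le i) (hqs ha)⟩
        step := fun i => s.step i }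
    exact le_iSup (fun p : LTSeries _ => (p.length : WithBot ℕ∞)) s'

/-- If `f` is equidimensional at `x` and `O_{Y,f x}` is universally catenary and equidimensional,
then `O_{X,x}` is equidimensional. -/
theorem isEquidim_stalk (f : X ⟶ Y) [LocallyOfFiniteType f] (x : X)
    (h : EGA43.IsEquidimAt f x) (hcat : CAlg.IsUniversallyCatenary (Y.presheaf.stalk (f x)))
    (hY : EGA4.IsEquidim (Y.presheaf.stalk (f x))) :
    EGA4.IsEquidim (X.presheaf.stalk x) := by
  obtain ⟨e, t, -, -, h1⟩ := exists_ringKrullDim_formula f x h hcat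
  apply isEquidim_of_forall
  intro p hp q hq
  obtain ⟨h2, h3⟩ := h1 p hp
  obtain ⟨h4, h5⟩ := h1 q hq
  rw [hY _ h2] at h3
  rw [hY _ h4] at h5
  have h6 := h3.trans h5.symm
  have hcancel : ∀ a b : WithBot ℕ∞, a + (t : WithBot ℕ∞) = b + (t : WithBot ℕ∞) → a = b := by
    intro a b hab
    induction a using WithBot.recBotCoe with
    | bot =>
      induction b using WithBot.recBotCoe with
      | bot => rfl
      | coe b =>
        exfalso
        have : (((b + t : ℕ∞)) : WithBot ℕ∞) = ⊥ := by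
          rw [WithBot.coe_add]
          exact hab.symm.trans (WithBot.bot_add _)
        exact absurd this (WithBot.coe_ne_bot)
    | coe a =>
      induction b using WithBot.recBotCoe with
      | bot =>
        exfalso
        have : (((a + t : ℕ∞)) : WithBot ℕ∞) = ⊥ := by
          rw [WithBot.coe_add]
          exact hab.trans (WithBot.bot_add _)
        exact absurd this (WithBot.coe_ne_bot)
      | coe b =>
        have h7 : (((a + t : ℕ∞)) : WithBot ℕ∞) = ((b + t : ℕ∞)) := by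
          rw [WithBot.coe_add, WithBot.coe_add]
          exact hab
        have h8 : a + (t : ℕ∞) = b + t := WithBot.coe_injective h7
        rw [(ENat.add_left_injective_of_ne_top (ENat.natCast_ne_top t)) h8]
  exact hcancel _ _ h6

end Groth.Agent.Ega4fib.H117.EquidimDim
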